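import Cfsg.Agent.Lib.SmallOrders.ColumnFive

/-!
An involution with centraliser of order four in a simple group: three characters of odd degree.
-/

set_option autoImplicit false

open scoped ComplexConjugate

universe u

namespace CfsgLib.SmallOrders.Range

open Subgroup Cfsg CfsgLib.CharTheory CfsgLib.SmallGroups

variable {G : Type u} [Group G] [Finite G] [IsSimpleGroup G]

/-- Three odd degrees summing with signs to `-1`, whose squares fill the order modulo `16`. -/
theorem exists_odd_degrees (hG : ¬ IsMulCommutative G) {u : G} (hu : orderOf u = 2)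
    (hC : Nat.card ↥(centralizer ({u} : Set G)) = 4) :
    ∃ d e f : ℕ, (∀ x ∈ [d, e, f], 1 < x ∧ x % 2 = 1 ∧ x ∣ Nat.card G ∧ x ^ 2 < Nat.card G) ∧
      (1 + (if d % 4 = 1 then (d : ℤ) else -d) + (if e % 4 = 1 then (e : ℤ) else -e) +
        (if f % 4 = 1 then (f : ℤ) else -f) = 0) ∧
      (1 + d ^ 2 + e ^ 2 + f ^ 2) % 16 = Nat.card G % 16 := by
  classical
  have := Fintype.ofFinite G
  have : Finite (IrrCharacter G) := Nat.finite_of_card_ne_zero (by
    rw [card_irrCharacter]; exact Nat.card_pos.ne')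
  have := Fintype.ofFinite (IrrCharacter G)
  have huu : u * u = 1 := by rw [← pow_two, ← hu, pow_orderOf_eq_one]
  choose deg hdpos hddvd hdeg using fun χ : IrrCharacter G => IsIrrCharacter.exists_degree_dvd χ.2
  choose a ha using fun χ : IrrCharacter G => (show ∃ r : ℤ, (χ : G → ℂ) u = r by
    obtain ⟨-, r, -, hr, -⟩ := CfsgLib.Involutions.exists_int_of_involution χ.2 (a := u) huu
    exact ⟨r, hr⟩)
  have hfour : ∀ χ, (4 : ℤ) ∣ a χ - deg χ := fun χ =>
    four_dvd_sub_involution (commutator_eq_top_of_simple hG) χ.2 huu (hdeg χ) (ha χ)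
  set one := trivIrr G with hone
  have hdeg1 : deg one = 1 := by
    have h := hdeg one
    rw [hone, trivIrr_apply] at h
    exact_mod_cast h.symm
  have ha1 : a one = 1 := by
    have h := ha one
    rw [hone, trivIrr_apply] at h
    exact_mod_cast h.symm
  have hnorm : ∑ χ, a χ ^ 2 = 4 := by
    have h := sum_mul_conj u u
    rw [if_pos (IsConj.refl u), hC] at h
    simp only [ha, map_intCast, ← Int.cast_mul, ← Int.cast_sum] at h
    simp only [pow_two]
    exact_mod_cast h
  have horth : ∑ χ, (deg χ : ℤ) * a χ = 0 := by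
    have h := sum_degree_mul (G := G) u
    rw [if_neg (ne_one_of_orderOf hu)] at h
    simp only [ha, hdeg] at h
    exact_mod_cast h
  have hsq : ∑ χ, deg χ ^ 2 = Nat.card G := by
    have h := sum_degree_sq (G := G)
    simp only [hdeg] at h
    exact_mod_cast h
  set S := (Finset.univ.erase one).filter fun χ => a χ ≠ 0 with hS
  have hsplit : ∀ g : IrrCharacter G → ℤ, (∀ χ, a χ = 0 → g χ = 0) →
      ∑ χ, g χ = g one + ∑ χ ∈ S, g χ := by
    intro g hg
    rw [← Finset.add_sum_erase Finset.univ g (Finset.mem_univ one), hS,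
      Finset.sum_filter_of_ne (p := fun χ => a χ ≠ 0) fun χ _ h h0 => h (hg χ h0)]
  have hS2 : ∑ χ ∈ S, a χ ^ 2 = 3 := by
    have h := hsplit (fun χ => a χ ^ 2) fun χ h => by simp [h]
    rw [hnorm, ha1] at h
    linarith
  have hpm : ∀ χ ∈ S, a χ = 1 ∨ a χ = -1 := by
    intro χ hχ
    have h := Finset.single_le_sum (f := fun φ => a φ ^ 2) (fun φ _ => sq_nonneg _) hχ
    rw [hS2] at h
    have h0 := (Finset.mem_filter.1 hχ).2
    have : a χ < 2 := by nlinarith
    have : -2 < a χ := by nlinarith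
    omega
  have hcard : S.card = 3 := by
    rw [Finset.sum_congr rfl (g := fun _ => (1 : ℤ)) (fun χ hχ => by
      rcases hpm χ hχ with e | e <;> rw [e] <;> norm_num), Finset.sum_const, nsmul_one] at hS2
    exact_mod_cast hS2
  have hd : ∀ χ ∈ S, 1 < deg χ ∧ deg χ % 2 = 1 ∧ deg χ ∣ Nat.card G ∧ deg χ ^ 2 < Nat.card G ∧
      (deg χ : ℤ) * a χ = if deg χ % 4 = 1 then (deg χ : ℤ) else -deg χ := by
    intro χ hχ
    have hne : χ ≠ one := (Finset.mem_erase.1 (Finset.mem_filter.1 hχ).1).1
    obtain ⟨j, hj⟩ := hfour χ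
    refine ⟨SelfCentral.one_lt_degree hG hne (hdeg χ) (hdpos χ), ?_, hddvd χ, ?_, ?_⟩
    · rcases hpm χ hχ with e | e <;> rw [e] at hj <;> omega
    · have h := Finset.sum_le_sum_of_subset (f := fun φ => deg φ ^ 2)
        (Finset.subset_univ ({one, χ} : Finset (IrrCharacter G)))
      rw [hsq, Finset.sum_pair hne.symm, hdeg1] at h
      omega
    · rcases hpm χ hχ with e | e <;> rw [e] at hj ⊢
      · rw [if_pos (by omega)]; ring
      · rw [if_neg (by omega)]; ring
  obtain ⟨x, y, z, hxy, hxz, hyz, hSe⟩ := Finset.card_eq_three.1 hcard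
  have hx : x ∈ S := by rw [hSe]; simp
  have hy : y ∈ S := by rw [hSe]; simp
  have hz : z ∈ S := by rw [hSe]; simp
  have hsum : ∀ {M : Type} [AddCommMonoid M] (g : IrrCharacter G → M),
      ∑ χ ∈ S, g χ = g x + (g y + g z) := by
    intro M _ g
    rw [hSe, Finset.sum_insert (by simp [hxy, hxz]), Finset.sum_pair hyz]
  refine ⟨deg x, deg y, deg z, ?_, ?_, ?_⟩
  · intro w hw
    simp only [List.mem_cons, List.not_mem_nil, or_false] at hw
    rcases hw with rfl | rfl | rfl
    exacts [⟨(hd x hx).1, (hd x hx).2.1, (hd x hx).2.2.1, (hd x hx).2.2.2.1⟩,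
      ⟨(hd y hy).1, (hd y hy).2.1, (hd y hy).2.2.1, (hd y hy).2.2.2.1⟩,
      ⟨(hd z hz).1, (hd z hz).2.1, (hd z hz).2.2.1, (hd z hz).2.2.2.1⟩]
  · have h := hsplit (fun χ => (deg χ : ℤ) * a χ) fun χ h => by simp [h]
    rw [horth, hdeg1, ha1, hsum, (hd x hx).2.2.2.2, (hd y hy).2.2.2.2, (hd z hz).2.2.2.2] at h
    push_cast at h
    linarith
  · have hrest : 16 ∣ ∑ χ ∈ Finset.univ \ insert one S, deg χ ^ 2 := by
      refine Finset.dvd_sum fun χ hχ => ?_
      simp only [Finset.mem_sdiff, Finset.mem_univ, Finset.mem_insert, true_and, not_or, hS,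
        Finset.mem_filter, Finset.mem_erase, and_true] at hχ
      have ha0 : a χ = 0 := by
        by_contra hne
        exact hχ.2 ⟨hχ.1, hne⟩
      obtain ⟨j, hj⟩ := hfour χ
      rw [ha0] at hj
      have h4 : 4 ∣ deg χ := by omega
      exact (pow_dvd_pow_of_dvd h4 2)
    have htot := Finset.sum_sdiff (f := fun χ => deg χ ^ 2)
      (Finset.subset_univ (insert one S))
    rw [hsq, Finset.sum_insert (by simp [hS]), hsum, hdeg1] at htot
    omega

end CfsgLib.SmallOrders.Range
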